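import Cfsg.Agent.H643.RIM.Over
import Cfsg.Agent.H643.QO.Cov
import Cfsg.Agent.H665.RIM.Defs
import Cfsg.Agent.Blocks.Deflate

/-!
# `NB p m S` from a cuspidal character of a Levi block (S4816, TOOL-HC)

* `Lifts m φ` : `φ : G₀ →* S` lifts to every central extension of `S` with kernel of order `m`;
  `lifts_of_mult`, `lifts_prod`;
* `nb_of_levi` : the user lemma.
-/

set_option autoImplicit false
set_option linter.unusedSectionVars false

open scoped ComplexConjugate Pointwise commutatorElement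

namespace Cfsg.Agent.H643.RIM

open Cfsg Cfsg.Agent.Characters CoxeterSystem Cfsg.Agent.ChevalleyStructure.CoxeterGeom Cfsg.Agent.Tits.Roots
  Cfsg.Agent.Tits.Core Cfsg.Agent.Tits.Exchange Cfsg.Agent.Nodes.Reps Cfsg.Agent.Nodes.BNOf Cfsg.Agent.Nodes.StabComb
  Cfsg.Agent.Nodes.Bruhat Cfsg.Agent.Nodes.OppDec Cfsg.Agent.Nodes.LeviDec Cfsg.Agent.Nodes.RGDLift Cfsg.Agent.H53.HC
  Cfsg.Agent.OddOrderCharacters.IndRes
open Cfsg.Agent.H665.RIM (NB)

universe u v

/-! ### generalities -/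

section gen

/-- `φ` lifts to every central extension with kernel of order `m` -/
def Lifts (m : ℕ) {S : Type u} {G₀ : Type v} [Group S] [Group G₀] (φ : G₀ →* S) : Prop :=
  ∀ (E : Type u) [Group E] [Finite E] (π : E →* S), Function.Surjective π → π.ker ≤ Subgroup.center E →
    Nat.card π.ker = m → ∃ φ' : G₀ →* E, π.comp φ' = φ

theorem lifts_of_mult {m c : ℕ} {S : Type u} {G₀ : Type v} [Group S] [Group G₀] (hc : Cfsg.HasCyclicSchurMultiplier G₀ c)
    (hp : commutator G₀ = ⊤) (hcm : m.Coprime c) (φ : G₀ →* S) : Lifts m φ := by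
  intro E _ _ π hs hcen hk
  exact Cfsg.Agent.H643.QO.exists_lift hc hp φ hs hcen (by rw [hk]; exact hcm)

variable {G₀ : Type v} {E : Type u} {S : Type*} [Group G₀] [Group E] [Group S]

/-- two homomorphisms of a perfect group which agree modulo a central kernel are equal -/
theorem hom_unique (hp : commutator G₀ = ⊤) {π : E →* S} (hc : π.ker ≤ Subgroup.center E) {f g : G₀ →* E}
    (h : ∀ x, π (f x) = π (g x)) : f = g := by
  have hz : ∀ x, ∃ z ∈ Subgroup.center E, f x = g x * z := by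
    intro x
    refine ⟨(g x)⁻¹ * f x, hc ?_, by group⟩
    rw [MonoidHom.mem_ker, map_mul, map_inv, h, inv_mul_cancel]
  have hle : commutator G₀ ≤ f.eqLocus g := by
    rw [commutator_eq_closure, Subgroup.closure_le]
    rintro _ ⟨a, b, rfl⟩
    obtain ⟨z, hz1, ea⟩ := hz a
    obtain ⟨y, hy1, eb⟩ := hz b
    show f ⁅a, b⁆ = g ⁅a, b⁆
    rw [map_commutatorElement, map_commutatorElement, ea, eb, commutatorElement_def, commutatorElement_def]
    have h1 := Subgroup.mem_center_iff.1 hz1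
    have h2 := Subgroup.mem_center_iff.1 hy1
    have h1' : ∀ w, z * w = w * z := fun w => (h1 w).symm
    have h2' : ∀ w, y * w = w * y := fun w => (h2 w).symm
    calc g a * z * (g b * y) * (g a * z)⁻¹ * (g b * y)⁻¹
        = g a * (z * (g b * y)) * (z⁻¹ * (g a)⁻¹) * (y⁻¹ * (g b)⁻¹) := by group
      _ = g a * ((g b * y) * z) * (z⁻¹ * (g a)⁻¹) * (y⁻¹ * (g b)⁻¹) := by rw [h1']
      _ = g a * g b * (y * (g a)⁻¹) * (y⁻¹ * (g b)⁻¹) := by group
      _ = g a * g b * ((g a)⁻¹ * y) * (y⁻¹ * (g b)⁻¹) := by rw [h2']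
      _ = g a * g b * (g a)⁻¹ * (g b)⁻¹ := by group
  ext x
  exact hle (hp ▸ Subgroup.mem_top x)

theorem lifts_prod {m : ℕ} {S : Type u} {A B : Type v} [Group S] [Group A] [Group B] (hA : commutator A = ⊤)
    (φ : A × B →* S) (h1 : Lifts m (φ.comp (MonoidHom.inl A B))) (h2 : Lifts m (φ.comp (MonoidHom.inr A B))) :
    Lifts m φ := by
  intro E _ _ π hs hcen hk
  obtain ⟨f, hf⟩ := h1 E π hs hcen hk
  obtain ⟨g, hg⟩ := h2 E π hs hcen hk
  have hf1 : ∀ a, π (f a) = φ (a, 1) := fun a => DFunLike.congr_fun hf a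
  have hg1 : ∀ b, π (g b) = φ (1, b) := fun b => DFunLike.congr_fun hg b
  -- the images commute
  have hcomm : ∀ a b, Commute (f a) (g b) := by
    intro a b
    have h3 : (MulAut.conj (g b)).toMonoidHom.comp f = f := by
      refine hom_unique hA hcen fun x => ?_
      show π (g b * f x * (g b)⁻¹) = π (f x)
      rw [map_mul, map_mul, map_inv, hf1, hg1, ← map_mul, ← map_inv, ← map_mul]
      congr 1
      simp
    have h4 : g b * f a * (g b)⁻¹ = f a := DFunLike.congr_fun h3 a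
    show f a * g b = g b * f a
    calc f a * g b = g b * f a * (g b)⁻¹ * g b := by rw [h4]
      _ = g b * f a := by group
  refine ⟨MonoidHom.noncommCoprod f g hcomm, ?_⟩
  ext ⟨a, b⟩
  show π (f a * g b) = φ (a, b)
  rw [map_mul, hf1, hg1, ← map_mul, Prod.mk_mul_mk, mul_one, one_mul]

/-- preimages of `r`-elements -/
theorem exists_ppart {r : ℕ} [Fact r.Prime] [Finite G₀] (f : G₀ →* S) {g : G₀} {k : ℕ} (hk : f g ^ r ^ k = 1) :
    ∃ x, f x = f g ∧ ∃ j, x ^ r ^ j = 1 := by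
  obtain ⟨a, b, hb, hab⟩ := Nat.exists_eq_pow_mul_and_not_dvd (orderOf_pos g).ne' r
    (Fact.out : r.Prime).ne_one
  have hco : (r ^ (a + k)).Coprime b := Nat.Coprime.pow_left _ (((Fact.out : r.Prime).coprime_iff_not_dvd).2 hb)
  obtain ⟨c, h1, h2⟩ := Nat.chineseRemainder hco 1 0
  refine ⟨g ^ c, ?_, a, ?_⟩
  · rw [map_pow]
    have h3 : c ≡ 1 [MOD orderOf (f g)] := by
      refine h1.of_dvd ?_
      exact (orderOf_dvd_of_pow_eq_one hk).trans (pow_dvd_pow _ (Nat.le_add_left _ _))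
    have h4 := pow_eq_pow_iff_modEq.2 h3
    rw [h4, pow_one]
  · rw [← pow_mul]
    apply orderOf_dvd_iff_pow_eq_one.1
    rw [hab, mul_comm]
    exact mul_dvd_mul_right ((Nat.modEq_zero_iff_dvd).1 h2) _

/-- An irreducible character which is trivial on the kernel of a surjective homomorphism. -/
theorem descend {X Y : Type*} [Group X] [Group Y] [Finite X] (f : X →* Y)
    (hf : Function.Surjective f) {ψ : X → ℂ} (hirr : IsIrrCharacter X ψ) (hψ : ∀ k, f k = 1 → ψ k = ψ 1) :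
    ∃ χ : Y → ℂ, IsIrrCharacter Y χ ∧ ∀ x, χ (f x) = ψ x := by
  have := Fintype.ofFinite f.ker
  obtain ⟨χ', hχ'⟩ := Cfsg.Agent.Blocks.Deflate.exists_deflation f.ker ψ hirr (by
    rw [Finset.sum_congr rfl fun n _ => show ψ ((n : f.ker) : X) = ψ 1 from hψ n n.2, Finset.sum_const, nsmul_eq_mul]
    refine mul_ne_zero ?_ (Core.isIrr_apply_one_ne_zero hirr)
    exact Nat.cast_ne_zero.2 (Finset.card_ne_zero.2 ⟨1, Finset.mem_univ _⟩))
  let e := QuotientGroup.quotientKerEquivOfSurjective f hf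
  refine ⟨(χ' : X ⧸ f.ker → ℂ) ∘ e.symm, Core.isIrr_comp e.symm.toMonoidHom e.symm.surjective χ'.2, fun x => ?_⟩
  rw [Function.comp_apply, hχ']
  have h1 : e.symm (f x) = (x : X ⧸ f.ker) := by
    rw [MulEquiv.symm_apply_eq]
    rfl
  exact congrArg (χ' : X ⧸ f.ker → ℂ) h1

theorem charDegree_cast {G : Type*} [Group G] {χ : G → ℂ} (hχ : IsIrrCharacter G χ) : ((charDegree χ : ℕ) : ℂ) = χ 1 := by
  obtain ⟨n, ρ, -, rfl⟩ := hχ
  have h1 : ρ.character 1 = (n : ℂ) := by
    rw [Representation.char_one]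
    simp
  unfold charDegree
  rw [h1, Complex.natCast_re, Nat.floor_natCast]

end gen

section levi

variable {I : Type*} {W : Type*} {S : Type u} [Fintype I] [DecidableEq I] [Group W] [Group S] {M : CoxeterMatrix I}
  {cs : CoxeterSystem M W} {A : I → I → ℤ} {h : IsCartan M A} {r : ℕ} {T : Subgroup S} {n : I → S}
  {X : (I → ℤ) → Subgroup S}

section lift

variable {E : Type*} [Group E] [Finite E] [Fact r.Prime] [Finite W] {π : E →* S}
  (hc : π.ker ≤ Subgroup.center E) (hk : (Nat.card π.ker).Coprime r) (hs : Function.Surjective π)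
  (R : RGD cs h r T n X)

include hc hk hs R

theorem T_le_map : T ≤ (T.comap π).map π := by
  intro t ht
  obtain ⟨t', rfl⟩ := hs t
  exact ⟨t', ht, rfl⟩

/-- the lift of a product of root groups maps onto the product -/
theorem sup_le_map {Q : Set (I → ℤ)} (hQ : ∀ x ∈ Q, IsRoot cs h x) :
    RGD.Sup X Q ≤ (RGD.Sup (fun x => lft r π (X x)) Q).map π := by
  refine RGD.Sup_le fun x hx => ?_
  rw [← map_lft hc hk hs (R.pgrp' (hQ x hx))]
  exact Subgroup.map_mono (RGD.le_Sup (X := fun x => lft r π (X x)) hx)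

theorem map_Sup' {Q : Set (I → ℤ)} (hQ : ∀ x ∈ Q, IsRoot cs h x) :
    (RGD.Sup (fun x => lft r π (X x)) Q).map π = RGD.Sup X Q := by
  apply le_antisymm
  · rw [Subgroup.map_le_iff_le_comap]
    refine RGD.Sup_le fun x hx => ?_
    rw [← Subgroup.map_le_iff_le_comap]
    exact le_trans (map_lft_le r π (X x)) (RGD.le_Sup hx)
  · exact sup_le_map hc hk hs R hQ

theorem map_comap_T : (T.comap π).map π = T := Subgroup.map_comap_eq_self_of_surjective hs T

theorem GG_lift (hG : GG cs h T X = ⊤) : GG cs h (T.comap π) (fun x => lft r π (X x)) = ⊤ := by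
  have h1 : (GG cs h (T.comap π) (fun x => lft r π (X x))).map π = ⊤ := by
    have h3 := map_Sup' hc hk hs R (Q := {x | IsRoot cs h x}) fun x hx => hx
    unfold GG at hG ⊢
    rw [Subgroup.map_sup, map_comap_T hc hk hs R]
    exact (congrArg (T ⊔ ·) h3).trans hG
  have h2 : π.ker ≤ GG cs h (T.comap π) (fun x => lft r π (X x)) :=
    le_trans (fun z hz => show π z ∈ T by rw [MonoidHom.mem_ker.1 hz]; exact one_mem _) le_sup_left
  rw [← Subgroup.comap_map_eq_self h2, h1, Subgroup.comap_top]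

theorem map_PJ (J : Set I) : (PJ cs h (T.comap π) (fun x => lft r π (X x)) J).map π = PJ cs h T X J := by
  unfold PJ LJ VJ
  rw [Subgroup.map_sup, Subgroup.map_sup, map_Sup' hc hk hs R fun x hx => hx.1, map_Sup' hc hk hs R fun x hx => hx.1,
    map_comap_T hc hk hs R]

theorem index_PJ (J : Set I) : (PJ cs h (T.comap π) (fun x => lft r π (X x)) J).index = (PJ cs h T X J).index := by
  have h2 : π.ker ≤ PJ cs h (T.comap π) (fun x => lft r π (X x)) J :=
    le_trans (fun z hz => show π z ∈ T by rw [MonoidHom.mem_ker.1 hz]; exact one_mem _) (le_trans T_le_LJ LJ_le_PJ)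
  rw [← Subgroup.comap_map_eq_self h2, map_PJ hc hk hs R, Subgroup.index_comap_of_surjective _ hs]

omit hc hk [Fact r.Prime] [Finite E] [Finite W] in
theorem rp_map {n' : I → E} (hn' : ∀ i, π (n' i) = n i) (hN : NSys M (T.comap π) n') {w : W} {g : E}
    (hg : Rp cs hN w g) : Rp cs R.nsys w (π g) := by
  obtain ⟨g₀, h1, h2⟩ : ∃ g₀ : E, Rp cs hN w g₀ ∧ Rp cs R.nsys w (π g₀) := by
    refine cs.simple_induction_left (p := fun w => ∃ g₀ : E, Rp cs hN w g₀ ∧ Rp cs R.nsys w (π g₀)) w ?_ ?_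
    · exact ⟨1, rp_one, by rw [map_one]; exact rp_one⟩
    · rintro w i ⟨g₀, h1, h2⟩
      refine ⟨n' i * g₀, (rp_simple cs hN i).mul h1, ?_⟩
      rw [map_mul, hn']
      exact (rp_simple cs R.nsys i).mul h2
  have h3 := h1.unique hg
  have h4 : π g = π g₀ * π (g₀⁻¹ * g) := by rw [← map_mul]; congr 1; group
  rw [h4]
  exact h2.mul_mem_right h3

end lift

/-- **The user lemma.** `S` with a root group datum in characteristic `r`; `φ : G₀ →* S` a homomorphism of a perfect
group onto `M_J` which lifts to the central extensions with kernel of order `m`; `Rad i` the subgroups of `G₀`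
corresponding to the radicals. For every linear character `μ` of `ker φ` with `μ ^ m = 1` there is a cuspidal irreducible
character `θ` of `G₀` over `μ`, not fixed by the elements `w ∉ W_J` permuting the simple roots of `J`, with
`p ∣ |S : P_J| θ(1)`. -/
theorem nb_of_levi [Finite W] [Finite S] [Fact r.Prime] (R : RGD cs h r T n X) (hG : GG cs h T X = ⊤) (J : Set I)
    {G₀ : Type v} [Group G₀] [Finite G₀] (hperf : commutator G₀ = ⊤) (φ : G₀ →* S)
    (hφ : φ.range = MJ cs h X J) {p m : ℕ} (hm : ¬ r ∣ m) (hlift : Lifts m φ) (Rad : I → Subgroup G₀)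
    (hRp : ∀ i ∈ J, IsPGroup r (Rad i)) (hRi : ∀ i ∈ J, ∀ u ∈ Rad i, φ u = 1 → u = 1)
    (hR : ∀ i ∈ J, (Rad i).map φ = rad cs h X J i)
    (hθ : ∀ μ : φ.ker →* ℂˣ, (∀ z, μ z ^ m = 1) → ∃ θ : G₀ → ℂ, IsIrrCharacter G₀ θ ∧
      (∀ z : φ.ker, θ z = μ z * θ 1) ∧ (∀ i ∈ J, ∀ [Fintype (Rad i)], ∑ u : Rad i, θ u = 0) ∧
      (∀ w g, Rp cs R.nsys w g → w ∉ WJ cs J → Perm cs h J w → ∃ σ : G₀ →* G₀, (∀ x, φ (σ x) = g⁻¹ * φ x * g) ∧
        ∃ x, θ (σ x) ≠ θ x) ∧ p ∣ (PJ cs h T X J).index * charDegree θ) :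
    NB p m S := by
  classical
  intro E _ _ π hs hc hcomm hcard l hl
  have hk : (Nat.card π.ker).Coprime r := by
    rw [hcard]
    exact (((Fact.out : r.Prime).coprime_iff_not_dvd).2 hm).symm
  have : Fintype E := Fintype.ofFinite E
  obtain ⟨n', hn'⟩ : ∃ n' : I → E, ∀ i, π (n' i) = n i := by
    choose n' hn' using fun i => hs (n i)
    exact ⟨n', hn'⟩
  have R' := rgd_lift hc hk hs R hn'
  have hG' := GG_lift hc hk hs R hG
  obtain ⟨φ', hφ'⟩ := hlift E π hs hc hcard
  have hφ1 : ∀ x, π (φ' x) = φ x := fun x => DFunLike.congr_fun hφ' x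
  obtain ⟨X', hX'⟩ : ∃ X' : (I → ℤ) → Subgroup E, X' = fun x => lft r π (X x) := ⟨_, rfl⟩
  have hmapM : (MJ cs h X' J).map π = MJ cs h X J := by
    rw [hX']; exact map_Sup' hc hk hs R fun x hx => hx.1
  -- the image of `φ'`
  have hr1 : MJ cs h X' J ≤ φ'.range := by
    refine RGD.Sup_le fun x hx => ?_
    rw [hX']
    intro y hy
    obtain ⟨h1, k, h2⟩ := (mem_lft hc (R.pgrp' hx.1)).1 hy
    have h3 : π y ∈ φ.range := by rw [hφ]; exact RGD.le_Sup hx h1
    obtain ⟨g, hg⟩ := h3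
    obtain ⟨g', h4, j, h5⟩ := exists_ppart (r := r) φ (g := g) (k := k) (by rw [hg, ← map_pow, h2, map_one])
    have h6 : π (φ' g') = π y := by rw [hφ1, h4, hg]
    have h7 : (y⁻¹ * φ' g') ^ r ^ (j + k) = 1 := by
      have hz : y⁻¹ * φ' g' ∈ Subgroup.center E := hc (by
        rw [MonoidHom.mem_ker, map_mul, map_inv, h6, inv_mul_cancel])
      have hcz : Commute y (y⁻¹ * φ' g') := (Subgroup.mem_center_iff.1 hz y)
      have h8 : φ' g' ^ r ^ (j + k) = 1 := by rw [pow_add, pow_mul, ← map_pow, h5, map_one, one_pow]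
      have h9 : y ^ r ^ (j + k) = 1 := by rw [pow_add, mul_comm, pow_mul, h2, one_pow]
      have h10 := hcz.mul_pow (r ^ (j + k))
      rw [mul_inv_cancel_left, h8, h9, one_mul] at h10
      exact h10.symm
    have h8 := eq_one_of_ker hk (f := π) (y := y⁻¹ * φ' g') (by rw [map_mul, map_inv, h6, inv_mul_cancel]) h7
    exact ⟨g', (inv_mul_eq_one.1 h8).symm⟩
  have hr2 : φ'.range ≤ MJ cs h X' J := by
    have h1 : ∀ a, ∃ q ∈ MJ cs h X' J, ∃ z ∈ Subgroup.center E, φ' a = q * z := by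
      intro a
      have h2 : π (φ' a) ∈ (MJ cs h X' J).map π := by rw [hmapM, hφ1, ← hφ]; exact ⟨a, rfl⟩
      obtain ⟨q, hq, e⟩ := h2
      exact ⟨q, hq, q⁻¹ * φ' a, hc (by rw [MonoidHom.mem_ker, map_mul, map_inv, e, inv_mul_cancel]), by group⟩
    have h2 : commutator G₀ ≤ (MJ cs h X' J).comap φ' := by
      rw [commutator_eq_closure, Subgroup.closure_le]
      rintro _ ⟨a, b, rfl⟩
      obtain ⟨q, hq, z, hz, ea⟩ := h1 a
      obtain ⟨q', hq', z', hz', eb⟩ := h1 b
      show φ' ⁅a, b⁆ ∈ MJ cs h X' J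
      have h3 : φ' ⁅a, b⁆ = ⁅q, q'⁆ := by
        rw [map_commutatorElement, ea, eb, commutatorElement_def, commutatorElement_def]
        have h1' : ∀ w, z * w = w * z := fun w => (Subgroup.mem_center_iff.1 hz w).symm
        have h2' : ∀ w, z' * w = w * z' := fun w => (Subgroup.mem_center_iff.1 hz' w).symm
        calc q * z * (q' * z') * (q * z)⁻¹ * (q' * z')⁻¹
            = q * (z * (q' * z')) * (z⁻¹ * q⁻¹) * (z'⁻¹ * q'⁻¹) := by group
          _ = q * ((q' * z') * z) * (z⁻¹ * q⁻¹) * (z'⁻¹ * q'⁻¹) := by rw [h1']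
          _ = q * q' * (z' * q⁻¹) * (z'⁻¹ * q'⁻¹) := by group
          _ = q * q' * (q⁻¹ * z') * (z'⁻¹ * q'⁻¹) := by rw [h2']
          _ = q * q' * q⁻¹ * q'⁻¹ := by group
      rw [h3, commutatorElement_def]
      exact mul_mem (mul_mem (mul_mem hq hq') (inv_mem hq)) (inv_mem hq')
    rintro _ ⟨a, rfl⟩
    exact h2 (hperf ▸ Subgroup.mem_top a)
  -- the central character
  let μ : φ.ker →* ℂˣ := l.comp
    { toFun := fun z => ⟨φ' z, (hφ1 z).trans z.2⟩
      map_one' := Subtype.ext (map_one φ')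
      map_mul' := fun a b => Subtype.ext (map_mul φ' _ _) }
  obtain ⟨θ, hirr, hμ, hcus, hnf, hdvd⟩ := hθ μ (fun z => by
    show l _ ^ m = 1
    rw [← map_pow, ← hcard, pow_card_eq_one', map_one])
  let f : G₀ →* MJ cs h X' J := φ'.codRestrict _ fun a => hr2 ⟨a, rfl⟩
  have hf : Function.Surjective f := by
    rintro ⟨y, hy⟩
    obtain ⟨a, rfl⟩ := hr1 hy
    exact ⟨a, rfl⟩
  obtain ⟨θ', hθ', hθf⟩ := descend f hf hirr (fun k hk1 => by
    have h1 : φ' k = 1 := congrArg Subtype.val hk1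
    have h2 : k ∈ φ.ker := by rw [MonoidHom.mem_ker, ← hφ1, h1, map_one]
    have h3 := hμ ⟨k, h2⟩
    have h4 : μ ⟨k, h2⟩ = 1 := by
      have h5 : (⟨φ' k, (hφ1 k).trans h2⟩ : π.ker) = 1 := Subtype.ext h1
      show l ⟨φ' k, _⟩ = 1
      rw [h5, map_one]
    rw [h4, Units.val_one, one_mul] at h3
    exact h3)
  have hθφ : ∀ (a : G₀) (ha : φ' a ∈ MJ cs h X' J), θ' ⟨φ' a, ha⟩ = θ a := fun a ha => hθf a
  have hθ1 : θ' 1 = θ 1 := by rw [← hθf 1, map_one]
  have hZT : π.ker ≤ T.comap π := fun z hz => show π z ∈ T by rw [MonoidHom.mem_ker.1 hz]; exact one_mem _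
  subst hX'
  obtain ⟨χ, hχ, hχl, k, hk0, hχ1⟩ := exists_ind_over R' hG' J hZT
    (fun z hz g => (Subgroup.mem_center_iff.1 (hc hz) g).symm) l hθ'
    (by
      intro z hz hn
      obtain ⟨a, rfl⟩ := hr1 hn
      have ha : a ∈ φ.ker := by rw [MonoidHom.mem_ker, ← hφ1]; exact hz
      rw [hθφ, hθ1]
      exact hμ ⟨a, ha⟩)
    (by
      intro i hi hfin
      have : Fintype (Rad i) := Fintype.ofFinite _
      have h1 := hcus i hi
      have hsub : ∀ u : Rad i, φ' u ∈ rad cs h (fun x => lft r π (X x)) J i := by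
        intro u
        have h2 : RGD.Sup (fun x => lft r π (X x)) (PosRad cs h J i) = lft r π (RGD.Sup X (PosRad cs h J i)) := by
          unfold RGD.Sup
          refine (lft_iSup hc hk hs (fun z : PosRad cs h J i => X z.1) ?_).symm
          exact R.isPGroup_of_pos fun _ hx => ⟨hx.1.1, hx.1.2.1⟩
        show φ' u ∈ RGD.Sup (fun x => lft r π (X x)) (PosRad cs h J i)
        rw [h2]
        refine le_lft (p := r) ((hRp i hi).map φ') ?_ (Subgroup.mem_map_of_mem _ u.2)
        rw [Subgroup.map_map, hφ', hR i hi]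
        exact le_rfl
      have hsur : ∀ y ∈ rad cs h (fun x => lft r π (X x)) J i, ∃ u ∈ Rad i, φ' u = y := by
        intro y hy
        have h2 : y ∈ lft r π (rad cs h X J i) := Cfsg.Agent.H643.QO.sup_le_lft _ hy
        have h3 : IsPGroup r ↥(rad cs h X J i) := R.isPGroup_of_pos fun _ hx => ⟨hx.1.1, hx.1.2.1⟩
        obtain ⟨u, hu, e⟩ := Cfsg.Agent.H643.QO.lft_le_map (φ' := φ') hc hk (hRp i hi) h3 (by
          rw [hφ', hR i hi]) h2
        exact ⟨u, hu, e⟩
      rw [← h1]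
      symm
      refine Fintype.sum_bijective (fun u : Rad i => (⟨φ' u, hsub u⟩ : rad cs h (fun x => lft r π (X x)) J i)) ?_ _ _ ?_
      · constructor
        · intro a b hab
          have h2 : φ' a = φ' b := congrArg Subtype.val hab
          have h3 : (a : G₀)⁻¹ * b = 1 := by
            refine hRi i hi _ (mul_mem (inv_mem a.2) b.2) ?_
            rw [← hφ1, map_mul, map_inv, h2, inv_mul_cancel, map_one]
          exact Subtype.ext (inv_mul_eq_one.1 h3)
        · rintro ⟨y, hy⟩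
          obtain ⟨u, hu, e⟩ := hsur y hy
          exact ⟨⟨u, hu⟩, Subtype.ext e⟩
      · intro u
        exact (hθφ u _).symm)
    (by
      intro w g hg hw hp
      obtain ⟨σ, hσ, x, hx⟩ := hnf w (π g) (rp_map hs R hn' R'.nsys hg) hw hp
      have h1 : φ'.comp σ = (MulAut.conj g⁻¹).toMonoidHom.comp φ' := by
        refine hom_unique hperf hc fun y => ?_
        show π (φ' (σ y)) = π (g⁻¹ * φ' y * g⁻¹⁻¹)
        rw [hφ1, hσ, map_mul, map_mul, map_inv, inv_inv, hφ1]
      have h2 : φ' (σ x) = g⁻¹ * φ' x * g := by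
        have := DFunLike.congr_fun h1 x
        rw [MonoidHom.comp_apply] at this
        rw [this]
        show g⁻¹ * φ' x * g⁻¹⁻¹ = _
        rw [inv_inv]
      refine ⟨φ' x, hr2 ⟨x, rfl⟩, ?_⟩
      rw [hθφ]
      intro e
      apply hx
      rw [← e, ← hθφ (σ x) (hr2 ⟨σ x, rfl⟩)]
      congr 1
      exact Subtype.ext h2)
  refine ⟨χ, hχ, fun z => by rw [hχl, mul_comm], ?_⟩
  have h1 : charDegree χ = k * ((PJ cs h T X J).index * charDegree θ) := by
    have h2 : ((charDegree χ : ℕ) : ℂ) = ((k * ((PJ cs h T X J).index * charDegree θ) : ℕ) : ℂ) := by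
      rw [charDegree_cast hχ, hχ1, Nat.cast_mul, Nat.cast_mul, charDegree_cast hirr, hθ1, index_PJ hc hk hs R]
    exact_mod_cast h2
  rw [h1]
  exact Dvd.dvd.mul_left hdvd k

end levi

end Cfsg.Agent.H643.RIM
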