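import Cfsg.Agent.H928.Van.Eng
import Cfsg.Agent.H115.HC.CuspCentral

/-!
# Harish-Chandra induction over a central character (S4816, TOOL-HC)

* `exists_irr_over_central` : an irreducible character over `θ ∈ Irr N` and over a linear character of a central
  subgroup, if they are compatible;
* `ind_of_over` : the criterion `exists_ind` of helper928 with a given character of `L_J`;
* `exists_ind_over` : `Y` with a root group datum, `Z ≤ T` central, `θ` a cuspidal character of `M_J` not fixed by the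
  elements permuting the simple roots of `J`: an irreducible character of `Y` over `l` with degree a multiple of
  `|Y : P_J| θ(1)`.
-/

set_option autoImplicit false
set_option linter.unusedSectionVars false

open scoped ComplexConjugate Pointwise

namespace Cfsg.Agent.H643.RIM

open Cfsg Cfsg.Agent.Characters CoxeterSystem Cfsg.Agent.ChevalleyStructure.CoxeterGeom Cfsg.Agent.Tits.Roots
  Cfsg.Agent.Tits.Core Cfsg.Agent.Tits.Exchange Cfsg.Agent.Nodes.Reps Cfsg.Agent.Nodes.BNOf Cfsg.Agent.Nodes.StabComb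
  Cfsg.Agent.Nodes.Bruhat Cfsg.Agent.Nodes.OppDec Cfsg.Agent.Nodes.LeviDec Cfsg.Agent.H53.HC
  Cfsg.Agent.OddOrderCharacters.IndRes

universe u

section ov

variable {G : Type*} [Group G]

/-- the values of a linear character of a finite group have absolute value one -/
theorem unit_mul_conj {Z : Type*} [Group Z] [Finite Z] (l : Z →* ℂˣ) (z : Z) : (l z : ℂ) * conj (l z : ℂ) = 1 := by
  have h1 : ((l z : ℂˣ) : ℂ) ^ Nat.card Z = 1 := by
    rw [← Units.val_pow_eq_pow_val, ← map_pow, pow_card_eq_one', map_one, Units.val_one]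
  have h2 : ‖(l z : ℂ)‖ = 1 := Complex.norm_eq_one_of_pow_eq_one h1 Nat.card_pos.ne'
  rw [Complex.mul_conj, Complex.normSq_eq_norm_sq, h2]
  norm_num

/-- **An irreducible character over `θ` and over a compatible linear character of a central subgroup.** -/
theorem exists_irr_over_central [Fintype G] (N Z : Subgroup G) [Fintype N] (hZ : ∀ z ∈ Z, ∀ g, z * g = g * z)
    (l : Z →* ℂˣ) {θ : N → ℂ} (hθ : IsIrrCharacter N θ)
    (hco : ∀ z (hz : z ∈ Z) (hn : z ∈ N), θ ⟨z, hn⟩ = l ⟨z, hz⟩ * θ 1) :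
    ∃ χ : G → ℂ, IsIrrCharacter G χ ∧ classInner (fun n : N => χ n) θ ≠ 0 ∧ ∀ z : Z, χ z = l z * χ 1 := by
  classical
  by_contra hcon
  push Not at hcon
  have := Core.finite_irr (G := G)
  have := Fintype.ofFinite (IrrCharacter G)
  obtain ⟨D, hD⟩ : ∃ D : G → ℂ, D = fun x => if h : x ∈ Z then (l ⟨x, h⟩ : ℂ) else 0 := ⟨_, rfl⟩
  have hDz : ∀ z : Z, D z = l z := fun z => by rw [hD]; exact dif_pos z.2
  have hDn : ∀ x, x ∉ Z → D x = 0 := fun x hx => by rw [hD]; exact dif_neg hx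
  have hcl : IsClassFunction G D := by
    intro y x
    by_cases hy : y ∈ Z
    · have : x * y * x⁻¹ = y := by rw [← hZ y hy x]; group
      rw [this]
    · have h1 : x * y * x⁻¹ ∉ Z := by
        intro h1
        apply hy
        have h2 : x⁻¹ * (x * y * x⁻¹) = (x * y * x⁻¹) * x⁻¹ := (hZ _ h1 x⁻¹).symm
        have h3 : y = x * y * x⁻¹ := by
          calc y = x⁻¹ * (x * y * x⁻¹) * x := by group
            _ = x * y * x⁻¹ := by rw [h2]; group
        rw [h3]; exact h1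
      rw [hDn _ hy, hDn _ h1]
  have hΦ : ∀ (z : Z) x, D (z * x) = l z * D x := by
    intro z x
    by_cases hx : x ∈ Z
    · have h1 := hDz (z * ⟨x, hx⟩)
      have h2 := hDz ⟨x, hx⟩
      rw [map_mul, Units.val_mul] at h1
      rw [← h2] at h1
      exact h1
    · have h1 : (z : G) * x ∉ Z := fun h1 => hx ((Subgroup.mul_mem_cancel_left Z z.2).1 h1)
      rw [hDn _ hx, hDn _ h1, mul_zero]
  have hexp := Core.classFunction_eq_sum hcl
  have h1 : classInner (fun n : N => D n) θ = 0 := by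
    have h2 : (fun n : N => D n) = ∑ χ : IrrCharacter G, classInner D (χ : G → ℂ) • (fun n : N => (χ : G → ℂ) n) := by
      funext n
      conv_lhs => rw [hexp]
      simp only [Finset.sum_apply, Pi.smul_apply]
    rw [h2, Core.classInner_sum_left]
    refine Finset.sum_eq_zero fun χ _ => ?_
    rw [Core.classInner_smul_left]
    by_cases h3 : classInner (fun n : N => (χ : G → ℂ) n) θ = 0
    · rw [h3, mul_zero]
    · obtain ⟨z, hz⟩ := hcon _ χ.2 h3
      rw [Cfsg.Agent.H115.HC.CuspCentral.classInner_eq_zero χ.2 Z hZ l hΦ hz, zero_mul]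
  rw [Core.classInner_def, mul_eq_zero] at h1
  rcases h1 with h1 | h1
  · exact Core.card_ne_zero_complex (inv_eq_zero.1 h1)
  have h2 : ∀ n : N, D n * conj (θ n) = if (n : G) ∈ Z then conj (θ 1) else 0 := by
    intro n
    by_cases hn : (n : G) ∈ Z
    · rw [if_pos hn, hDz ⟨n, hn⟩]
      have h3 : θ n = l ⟨n, hn⟩ * θ 1 := hco n hn n.2
      rw [h3, map_mul, ← mul_assoc, unit_mul_conj, one_mul]
    · rw [if_neg hn, hDn _ hn, zero_mul]
  rw [Finset.sum_congr rfl fun n _ => h2 n, ← Finset.sum_filter, Finset.sum_const, nsmul_eq_mul, mul_eq_zero] at h1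
  rcases h1 with h1 | h1
  · rw [Nat.cast_eq_zero, Finset.card_eq_zero] at h1
    have h3 : (1 : N) ∈ Finset.univ.filter (fun n : N => (n : G) ∈ Z) := by
      rw [Finset.mem_filter]
      exact ⟨Finset.mem_univ _, one_mem Z⟩
    rw [h1] at h3
    exact absurd h3 (Finset.notMem_empty _)
  · exact Core.isIrr_apply_one_ne_zero hθ ((map_eq_zero _).1 h1)

/-- **Clifford's theorem** for `N ≤ P ≤ N_G(N)` with a central character. -/
theorem exists_over_central [Finite G] {N P Z : Subgroup G} (hNP : N ≤ P) (hn : P ≤ Subgroup.normalizer (N : Set G))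
    (hZP : Z ≤ P) (hZ : ∀ z ∈ Z, ∀ g, z * g = g * z) (l : Z →* ℂˣ)
    {θ : N → ℂ} (hθ : IsIrrCharacter N θ) (hco : ∀ z (hz : z ∈ Z) (hn : z ∈ N), θ ⟨z, hn⟩ = l ⟨z, hz⟩ * θ 1) :
    ∃ ψ : P → ℂ, IsIrrCharacter P ψ ∧ (∃ m : ℕ, 0 < m ∧ ψ 1 = m * θ 1) ∧
      (∃ (c : ℂ) (s : Finset (N → ℂ)), (∀ x : N, ψ ⟨x, hNP x.2⟩ = c * ∑ φ ∈ s, φ x) ∧
        ∀ φ ∈ s, ∃ g ∈ P, ∀ x (hx : x ∈ N), ∃ hx' : g * x * g⁻¹ ∈ N, φ ⟨x, hx⟩ = θ ⟨g * x * g⁻¹, hx'⟩) ∧
      ∀ z (hz : z ∈ Z), ψ ⟨z, hZP hz⟩ = l ⟨z, hz⟩ * ψ 1 := by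
  classical
  have : Fintype G := Fintype.ofFinite G
  have : Fintype P := Fintype.ofFinite P
  have : Fintype N := Fintype.ofFinite N
  let N' : Subgroup P := N.subgroupOf P
  have hN' : N'.Normal := (Subgroup.normal_subgroupOf_iff_le_normalizer hNP).2 hn
  have : Fintype N' := Fintype.ofFinite N'
  let e : N' ≃* N := Subgroup.subgroupOfEquivOfLe hNP
  have hθ' : IsIrrCharacter N' (θ ∘ e) := Core.isIrr_comp e.toMonoidHom e.surjective hθ
  let Z' : Subgroup P := Z.subgroupOf P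
  let eZ : Z' ≃* Z := Subgroup.subgroupOfEquivOfLe hZP
  obtain ⟨ψ, hψ, hne, hl⟩ := exists_irr_over_central N' Z' (fun z hz g => Subtype.ext (hZ _ hz _))
    (l.comp eZ.toMonoidHom) hθ' (fun z hz hn => by
      show θ (e ⟨z, hn⟩) = (l (eZ ⟨z, hz⟩) : ℂ) * θ (e 1)
      rw [map_one]
      exact hco z hz hn)
  refine ⟨ψ, hψ, ?_, ⟨classInner (fun n : N' => ψ n) (θ ∘ e),
    (Finset.univ.image (fun x : P => (θ ∘ e) ∘ (MulAut.conjNormal x : MulAut N'))).image (fun φ => φ ∘ e.symm), ?_, ?_⟩,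
    fun z hz => hl ⟨⟨z, hZP hz⟩, hz⟩⟩
  · obtain ⟨m, hm⟩ := Cfsg.Agent.CharDeep.PowerDegrees.degree_dvd N' hψ hθ' hne
    have h1 : (θ ∘ e) 1 = θ 1 := by rw [Function.comp_apply, map_one]
    rw [h1] at hm
    refine ⟨m, Nat.pos_of_ne_zero ?_, hm⟩
    rintro rfl
    rw [Nat.cast_zero, zero_mul] at hm
    exact Core.isIrr_apply_one_ne_zero hψ hm
  · intro x
    have h1 := Cfsg.Agent.CharactersDeep.CliffordSum.restrict_eq_smul_sum N' hψ hθ' hne
    have h2 := congrFun h1 (e.symm x)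
    rw [Pi.smul_apply, Finset.sum_apply, smul_eq_mul] at h2
    rw [Finset.sum_image (by
      intro a _ b _ hab
      funext z
      have := congrFun hab (e z)
      simpa using this)]
    exact h2
  · intro φ hφ
    obtain ⟨φ', hφ', rfl⟩ := Finset.mem_image.1 hφ
    obtain ⟨g, -, rfl⟩ := Finset.mem_image.1 hφ'
    refine ⟨g, g.2, fun x hx => ?_⟩
    have h1 : (g : G) * x * (g : G)⁻¹ ∈ N := (Subgroup.mem_normalizer_iff.1 (hn g.2) x).1 hx
    refine ⟨h1, ?_⟩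
    rfl

end ov

section ind

variable {I : Type*} {W : Type*} {Y : Type u} [Fintype I] [DecidableEq I] [Group W] [Group Y] {M : CoxeterMatrix I}
  {cs : CoxeterSystem M W} {A : I → I → ℤ} {h : IsCartan M A} {p : ℕ} {T : Subgroup Y} {n : I → Y}
  {X : (I → ℤ) → Subgroup Y}

open Cfsg.Agent.H928.Van (Ind)

variable (R : RGD cs h p T n X)

include R

/-- **The criterion** for a given character of `L_J` over `θ`. -/
theorem ind_of_over [Finite W] [Fintype Y] (hG : GG cs h T X = ⊤) (J : Set I)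
    {θ : ↥(MJ cs h X J) → ℂ} (hθ : IsIrrCharacter _ θ)
    (hc : ∀ i ∈ J, ∀ [Fintype (rad cs h X J i)], ∑ u : rad cs h X J i, θ ⟨u, rad_le_MJ J i u.2⟩ = 0)
    (hs : ∀ w g (hg : Rp cs R.nsys w g), w ∉ WJ cs J → ∀ hw : Perm cs h J w,
      ∃ (m : Y) (hm : m ∈ MJ cs h X J), θ ⟨g⁻¹ * m * g, conj_mem_MJ R hg hw hm⟩ ≠ θ ⟨m, hm⟩)
    {ψ : ↥(LJ cs h T X J) → ℂ} (hψ : IsIrrCharacter _ ψ) {c : ℂ} {s : Finset (↥(MJ cs h X J) → ℂ)}
    (hres : ∀ x : MJ cs h X J, ψ ⟨x, MJ_le_LJ J x.2⟩ = c * ∑ φ ∈ s, φ x)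
    (hsφ : ∀ φ ∈ s, ∃ g ∈ LJ cs h T X J, ∀ x (hx : x ∈ MJ cs h X J), ∃ hx' : g * x * g⁻¹ ∈ MJ cs h X J,
      φ ⟨x, hx⟩ = θ ⟨g * x * g⁻¹, hx'⟩) :
    ∃ ψ' : ↥(PJ cs h T X J) → ℂ, Ind cs h T X J ψ ψ' := by
  classical
  obtain ⟨π, hπL, hπV⟩ := exists_projL R J
  have hsur : Function.Surjective π := fun l => ⟨⟨(l : Y), LJ_le_PJ l.2⟩, hπL l l.2⟩
  obtain ⟨ψ', hψ'⟩ : ∃ ψ' : ↥(PJ cs h T X J) → ℂ, ψ' = ψ ∘ π := ⟨_, rfl⟩
  have hψirr : IsIrrCharacter _ ψ' := by rw [hψ']; exact Core.isIrr_comp π hsur hψ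
  have hψL : ∀ (l : Y) (hl : l ∈ LJ cs h T X J), ψ' ⟨l, LJ_le_PJ hl⟩ = ψ ⟨l, hl⟩ := by
    intro l hl
    rw [hψ', Function.comp_apply, hπL]
  have hψV : ∀ (v : Y) (hv : v ∈ VJ cs h X J), ψ' ⟨v, VJ_le_PJ hv⟩ = ψ' 1 := by
    intro v hv
    rw [hψ', Function.comp_apply, hπV v hv, Function.comp_apply, map_one]
  have hres' : ∀ (m : Y) (hm : m ∈ MJ cs h X J), ψ' ⟨m, LJ_le_PJ (MJ_le_LJ J hm)⟩ = c * ∑ φ ∈ s, φ ⟨m, hm⟩ := by
    intro m hm
    rw [hψL]
    exact hres ⟨m, hm⟩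
  -- the conjugates are conjugates under the torus
  have hsT : ∀ φ ∈ s, ∃ t, ∃ ht : t ∈ T, φ = θ ∘ conjME (MJ cs h X J) (T_le_normalizer_MJ R J ht) := by
    intro φ hφ
    obtain ⟨g, hg, hgφ⟩ := hsφ φ hφ
    obtain ⟨m, hm, t, ht, rfl⟩ := (mem_LJ_iff_mul' R J).1 hg
    refine ⟨t, ht, ?_⟩
    funext x
    obtain ⟨hx', e⟩ := hgφ x x.2
    rw [e, Function.comp_apply]
    have h1 := Core.isIrr_isClassFunction hθ (conjME (MJ cs h X J) (T_le_normalizer_MJ R J ht) x) ⟨m, hm⟩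
    rw [← h1]
    congr 1
    apply Subtype.ext
    simp only [conjME_coe, Subgroup.coe_mul, InvMemClass.coe_inv]
    group
  have hvan : ∀ i ∈ J, ∀ [Fintype (rad cs h X J i)], ∑ u : rad cs h X J i, ψ' ⟨u, rad_le_PJ J i u.2⟩ = 0 := by
    intro i hi hf
    have h1 : ∀ u : rad cs h X J i, ψ' ⟨u, rad_le_PJ J i u.2⟩ = c * ∑ φ ∈ s, φ ⟨u, rad_le_MJ J i u.2⟩ :=
      fun u => hres' u (rad_le_MJ J i u.2)
    rw [Finset.sum_congr rfl fun u _ => h1 u, ← Finset.mul_sum, Finset.sum_comm]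
    rw [Finset.sum_eq_zero, mul_zero]
    intro φ hφ
    obtain ⟨t, ht, rfl⟩ := hsT φ hφ
    rw [← hc i hi]
    exact Fintype.sum_equiv (conjME (rad cs h X J i) (T_le_normalizer_rad R J i ht)).toEquiv _ _ fun u => rfl
  refine ⟨ψ', hψ, ?_, ?_, ?_⟩
  · intro l hl v hv hlv
    have h1 : (⟨l * v, hlv⟩ : PJ cs h T X J) = ⟨l, LJ_le_PJ hl⟩ * ⟨v, VJ_le_PJ hv⟩ := rfl
    rw [hψ', Function.comp_apply, h1, map_mul, hπV v hv, mul_one, hπL]
  · intro i hi hf
    rw [← hvan i hi]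
    exact Finset.sum_congr rfl fun u _ => (hψL _ (rad_le_LJ J i u.2)).symm
  · refine isIrr_indFun_rgd R hG J hψirr hψV hvan ?_
    · intro w g hg hw hp
      have hgn := inv_mem (rp_mem_normalizer_MJ R hg hp)
      refine ⟨MJ cs h X J, le_trans (MJ_le_LJ J) LJ_le_PJ,
        fun l hl => LJ_le_PJ (MJ_le_LJ J (conj_mem_MJ R hg hp hl)), ?_⟩
      intro hf
      have h1 : ∀ l : MJ cs h X J, ψ' ⟨l, LJ_le_PJ (MJ_le_LJ J l.2)⟩ *
          conj (ψ' ⟨g⁻¹ * l * g, LJ_le_PJ (MJ_le_LJ J (conj_mem_MJ R hg hp l.2))⟩) =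
          ∑ φ ∈ s, ∑ φ' ∈ s, (c * conj c) * (φ l * conj ((φ' ∘ conjME (MJ cs h X J) hgn) l)) := by
        intro l
        have e2 : (⟨g⁻¹ * l * g, conj_mem_MJ R hg hp l.2⟩ : MJ cs h X J) = conjME (MJ cs h X J) hgn l := by
          apply Subtype.ext
          rw [conjME_coe, inv_inv]
        rw [hres' l l.2, hres' _ (conj_mem_MJ R hg hp l.2), e2, map_mul, map_sum]
        simp only [← Finset.mul_sum, Function.comp_apply]
        rw [← Finset.sum_mul]
        ring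
      rw [Finset.sum_congr rfl fun l _ => h1 l, Finset.sum_comm]
      refine Finset.sum_eq_zero fun φ hφ => ?_
      rw [Finset.sum_comm]
      refine Finset.sum_eq_zero fun φ' hφ' => ?_
      rw [← Finset.mul_sum]
      obtain ⟨t, ht, rfl⟩ := hsT φ hφ
      obtain ⟨t', ht', rfl⟩ := hsT φ' hφ'
      have hne : θ ∘ conjME (MJ cs h X J) (T_le_normalizer_MJ R J ht) ≠
          (θ ∘ conjME (MJ cs h X J) (T_le_normalizer_MJ R J ht')) ∘ conjME (MJ cs h X J) hgn := by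
        intro he
        have hg' : Rp cs R.nsys w (t * g * t'⁻¹) := by
          have h2 := ((rp_of_mem (cs := cs) (hN := R.nsys) ht).mul hg).mul
            (rp_of_mem (cs := cs) (hN := R.nsys) (inv_mem ht'))
          rwa [one_mul, mul_one] at h2
        obtain ⟨m, hm, hne⟩ := hs w _ hg' hw hp
        apply hne
        have h3 := congrFun he (conjME (MJ cs h X J) (inv_mem (T_le_normalizer_MJ R J ht)) ⟨m, hm⟩)
        simp only [Function.comp_apply] at h3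
        refine Eq.trans ?_ (h3.symm.trans ?_)
        · congr 1
          apply Subtype.ext
          simp only [conjME_coe]
          group
        · congr 1
          apply Subtype.ext
          simp only [conjME_coe]
          group
      have hi1 : IsIrrCharacter _ (θ ∘ conjME (MJ cs h X J) (T_le_normalizer_MJ R J ht)) :=
        Core.isIrr_comp (conjME _ (T_le_normalizer_MJ R J ht)).toMonoidHom (MulEquiv.surjective _) hθ
      have hi2 : IsIrrCharacter _ (θ ∘ conjME (MJ cs h X J) (T_le_normalizer_MJ R J ht')) :=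
        Core.isIrr_comp (conjME _ (T_le_normalizer_MJ R J ht')).toMonoidHom (MulEquiv.surjective _) hθ
      have hi3 : IsIrrCharacter _ ((θ ∘ conjME (MJ cs h X J) (T_le_normalizer_MJ R J ht')) ∘
          conjME (MJ cs h X J) hgn) :=
        Core.isIrr_comp (conjME _ hgn).toMonoidHom (MulEquiv.surjective _) hi2
      have h4 := Core.classInner_irr_ne hi1 hi3 hne
      rw [Core.classInner_def, mul_eq_zero] at h4
      rcases h4 with h4 | h4
      · exact absurd (inv_eq_zero.1 h4) Core.card_ne_zero_complex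
      · rw [mul_eq_zero]
        exact Or.inr h4

/-- **Harish-Chandra induction over a central character.** -/
theorem exists_ind_over [Finite W] [Fintype Y] (hG : GG cs h T X = ⊤) (J : Set I) {Z : Subgroup Y} (hZT : Z ≤ T)
    (hZ : ∀ z ∈ Z, ∀ g, z * g = g * z) (l : Z →* ℂˣ)
    {θ : ↥(MJ cs h X J) → ℂ} (hθ : IsIrrCharacter _ θ)
    (hco : ∀ z (hz : z ∈ Z) (hn : z ∈ MJ cs h X J), θ ⟨z, hn⟩ = l ⟨z, hz⟩ * θ 1)
    (hc : ∀ i ∈ J, ∀ [Fintype (rad cs h X J i)], ∑ u : rad cs h X J i, θ ⟨u, rad_le_MJ J i u.2⟩ = 0)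
    (hs : ∀ w g (hg : Rp cs R.nsys w g), w ∉ WJ cs J → ∀ hw : Perm cs h J w,
      ∃ (m : Y) (hm : m ∈ MJ cs h X J), θ ⟨g⁻¹ * m * g, conj_mem_MJ R hg hw hm⟩ ≠ θ ⟨m, hm⟩) :
    ∃ χ : Y → ℂ, IsIrrCharacter Y χ ∧ (∀ z : Z, χ z = l z * χ 1) ∧
      ∃ m : ℕ, 0 < m ∧ χ 1 = m * ((PJ cs h T X J).index * θ 1) := by
  classical
  obtain ⟨ψ, hψ, ⟨m, hm, hm1⟩, ⟨c, s, hres, hsφ⟩, hψZ⟩ := exists_over_central (MJ_le_LJ (T := T) J)
    (LJ_le_normalizer_MJ R J) (le_trans hZT T_le_LJ) hZ l hθ hco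
  obtain ⟨ψ', hI⟩ := ind_of_over R hG J hθ hc hs hψ hres hsφ
  have h1 : (PJ cs h T X J) ≠ ⊥ ∨ True := Or.inr trivial
  have hψ1 : ψ' 1 = ψ 1 := by
    have h2 := hI.eq 1 (one_mem _) 1 (one_mem _) (by rw [one_mul]; exact one_mem _)
    have h3 : (⟨(1 : Y) * 1, by rw [one_mul]; exact one_mem _⟩ : PJ cs h T X J) = 1 := Subtype.ext (one_mul 1)
    rw [h3] at h2
    exact h2
  have hχ1 : indFun (PJ cs h T X J) ψ' 1 = (PJ cs h T X J).index * ψ 1 := by rw [indFun_one, hψ1]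
  refine ⟨indFun (PJ cs h T X J) ψ', hI.ind, ?_, m, hm, ?_⟩
  · intro z
    have hzL : (z : Y) ∈ LJ cs h T X J := T_le_LJ (hZT z.2)
    have hzP : (z : Y) ∈ PJ cs h T X J := LJ_le_PJ hzL
    have hzv : ψ' ⟨z, hzP⟩ = l z * ψ 1 := by
      have h2 := hI.eq z hzL 1 (one_mem _) (by rw [mul_one]; exact hzP)
      have h3 : (⟨(z : Y) * 1, by rw [mul_one]; exact hzP⟩ : PJ cs h T X J) = ⟨z, hzP⟩ := Subtype.ext (mul_one _)
      rw [h3] at h2
      rw [h2]
      exact hψZ z z.2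
    have h4 : indFun (PJ cs h T X J) ψ' (z : Y) = (PJ cs h T X J).index * ψ' ⟨z, hzP⟩ := by
      change (Nat.card (PJ cs h T X J) : ℂ)⁻¹ * ∑ g : Y, extendByZero (PJ cs h T X J) ψ' (g⁻¹ * z * g) = _
      have h5 : ∀ g : Y, extendByZero (PJ cs h T X J) ψ' (g⁻¹ * z * g) = ψ' ⟨z, hzP⟩ := by
        intro g
        have h6 : g⁻¹ * (z : Y) * g = z := by rw [mul_assoc, hZ z z.2 g, ← mul_assoc, inv_mul_cancel, one_mul]
        rw [h6]
        unfold extendByZero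
        have h7 : Function.extend Subtype.val ψ' (fun _ => (0 : ℂ)) ((⟨z, hzP⟩ : PJ cs h T X J) : Y) =
            ψ' ⟨z, hzP⟩ := Subtype.val_injective.extend_apply _ _ _
        exact h7
      rw [Finset.sum_congr rfl fun g _ => h5 g, Finset.sum_const, Finset.card_univ, nsmul_eq_mul,
        ← Nat.card_eq_fintype_card, ← (PJ cs h T X J).card_mul_index, Nat.cast_mul, mul_assoc, ← mul_assoc,
        inv_mul_cancel₀ Core.card_ne_zero_complex, one_mul]
    rw [h4, hzv, hχ1]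
    ring
  · rw [hχ1, hm1]
    ring

end ind

end Cfsg.Agent.H643.RIM
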