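import Cfsg.Agent.H53.HC.WPerm
import Cfsg.Agent.LieRecognition.BNCox

/-!
# Elements permuting the simple roots of a maximal parabolic subsystem reverse a component of type `A_m`

`J` = all nodes but `j`; `k : Fin m ↪ I` a component of `J` of type `A_m`, the only one of this type.

* `reverse` : if `m + 1` does not divide `2 ∑ (i + 1) A (k i) j`;
* `reverse_of_neg` : if `-1` is an element of the Weyl group, `2 ≤ m`.
-/

set_option autoImplicit false

namespace Cfsg.Agent.H643.RIM

open CoxeterSystem Cfsg.Agent.ChevalleyStructure.CoxeterGeom Cfsg.Agent.Tits.Roots Cfsg.Agent.Tits.Core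
  Cfsg.Agent.Tits.Exchange Cfsg.Agent.Nodes.Reps Cfsg.Agent.Nodes.BNOf Cfsg.Agent.Nodes.StabComb Cfsg.Agent.H53.HC
open Cfsg.Agent.LieRecognition.BNCox (cA cA_apply)
open Cfsg.Agent.LieRecognition.CoxClass (mA)

/-- automorphisms of a path -/
theorem path_aut {m : ℕ} {f : Fin m → Fin m} (hf : Function.Injective f)
    (hadj : ∀ i i' : Fin m, (i : ℕ) + 1 = i' → (f i : ℕ) + 1 = f i' ∨ (f i' : ℕ) + 1 = f i) :
    (∀ i, f i = i) ∨ ∀ i, f i = i.rev := by
  rcases Nat.lt_or_ge m 2 with hm | hm
  · left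
    intro i
    apply Fin.ext
    have := i.2
    have := (f i).2
    omega
  obtain ⟨a, ha⟩ : ∃ a : ℕ → ℤ, ∀ n (hn : n < m), a n = (f ⟨n, hn⟩ : ℕ) :=
    ⟨fun n => if hn : n < m then ((f ⟨n, hn⟩ : ℕ) : ℤ) else 0, fun n hn => by simp only [dif_pos hn]⟩
  have h1 : ∀ n, n + 1 < m → a (n + 1) - a n = 1 ∨ a (n + 1) - a n = -1 := by
    intro n hn
    rw [ha _ hn, ha n (by omega)]
    rcases hadj ⟨n, by omega⟩ ⟨n + 1, hn⟩ rfl with h | h <;> omega
  have h2 : ∀ n, n + 2 < m → a (n + 2) ≠ a n := by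
    intro n hn e
    rw [ha _ hn, ha n (by omega)] at e
    have h3 : f ⟨n + 2, hn⟩ = f ⟨n, by omega⟩ := Fin.ext (by exact_mod_cast e)
    have h4 := congrArg Fin.val (hf h3)
    simp only at h4
    omega
  have h3 : ∀ n, n + 1 < m → a (n + 1) - a n = a 1 - a 0 := by
    intro n
    induction n with
    | zero => intro _; rfl
    | succ n ih =>
      intro hn
      have h4 := ih (by omega)
      have h5 := h1 n (by omega)
      have h6 := h1 (n + 1) hn
      have h7 := h2 n hn
      rw [show n + 2 = n + 1 + 1 from rfl] at h7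
      omega
  have h4 : ∀ n, n < m → a n = a 0 + n * (a 1 - a 0) := by
    intro n
    induction n with
    | zero => intro _; push_cast; ring
    | succ n ih =>
      intro hn
      have h5 := ih (by omega)
      have h6 := h3 n hn
      push_cast
      linarith
  have h0 : 0 ≤ a 0 ∧ a 0 < m := by
    rw [ha 0 (by omega)]
    have := (f ⟨0, by omega⟩).2
    omega
  have hl : 0 ≤ a (m - 1) ∧ a (m - 1) < m := by
    rw [ha (m - 1) (by omega)]
    have := (f ⟨m - 1, by omega⟩).2
    omega
  rw [h4 (m - 1) (by omega), Nat.cast_sub (by omega), Nat.cast_one] at hl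
  rcases h1 0 (by omega) with h5 | h5
  · left
    rw [zero_add] at h5
    rw [h5] at hl
    have h6 : a 0 = 0 := by omega
    intro i
    apply Fin.ext
    have h7 := h4 i i.2
    rw [ha i i.2, h5, h6] at h7
    simp only [Fin.eta] at h7
    omega
  · right
    rw [zero_add] at h5
    rw [h5] at hl
    have h6 : a 0 = m - 1 := by omega
    intro i
    apply Fin.ext
    have h7 := h4 i i.2
    rw [ha i i.2, h5, h6] at h7
    simp only [Fin.eta] at h7
    rw [Fin.val_rev]
    have := i.2
    omega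

/-- the pairings of the weighted sum of the coroots of type `A_m` -/
theorem sum_chain (m i' : ℕ) (n : ℕ) :
    ∑ i ∈ Finset.range n, ((i : ℤ) + 1) * (if i = i' then (2 : ℤ) else if i + 1 = i' ∨ i' + 1 = i then -1 else 0) =
      if n = i' then -(i' : ℤ) else if n = i' + 1 then (i' : ℤ) + 2 else 0 := by
  induction n with
  | zero =>
    rw [Finset.sum_range_zero]
    by_cases h1 : 0 = i'
    · rw [if_pos h1, ← h1]; rfl
    · rw [if_neg h1, if_neg (by omega)]
  | succ n ih =>
    rw [Finset.sum_range_succ, ih]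
    split_ifs <;> first | omega | (push_cast; omega)

variable {I W : Type*} [Fintype I] [DecidableEq I] [Group W] {M : CoxeterMatrix I}
  {cs : CoxeterSystem M W} {A : I → I → ℤ} {h : IsCartan M A}

/-- `k` is a component of type `A_m` of `J`, the only one -/
structure OneChain (M : CoxeterMatrix I) (J : Set I) {m : ℕ} (k : Fin m ↪ I) : Prop where
  mem : ∀ i, k i ∈ J
  chain : ∀ i i', M (k i) (k i') = cA m i i'
  iso : ∀ a ∈ J, a ∉ Set.range k → ∀ i, M (k i) a = 2
  uniq : ∀ k' : Fin m ↪ I, (∀ i, k' i ∈ J) → (∀ i i', M (k' i) (k' i') = cA m i i') → ∃ i, k' i ∈ Set.range k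

omit [Fintype I] [DecidableEq I] in
theorem OneChain.of_card {J : Set I} [Finite I] {m : ℕ} (k : Fin m ↪ I) (mem : ∀ i, k i ∈ J)
    (chain : ∀ i i', M (k i) (k i') = cA m i i') (iso : ∀ a ∈ J, a ∉ Set.range k → ∀ i, M (k i) a = 2)
    (hcard : Nat.card ↥(J \ Set.range k) < m) : OneChain M J k := by
  refine ⟨mem, chain, iso, fun k' hk' _ => ?_⟩
  by_contra hcon
  push Not at hcon
  have h1 : Function.Injective (fun i : Fin m => (⟨k' i, hk' i, hcon i⟩ : ↥(J \ Set.range k))) := by
    intro a b hab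
    exact k'.injective (congrArg Subtype.val hab)
  have h2 := Nat.card_le_card_of_injective _ h1
  rw [Nat.card_eq_fintype_card, Fintype.card_fin] at h2
  exact absurd h2 (not_le.2 hcard)

omit [Fintype I] [DecidableEq I] in
theorem OneChain.of_isolated {J : Set I} {m : ℕ} (hm : 2 ≤ m) (k : Fin m ↪ I) (mem : ∀ i, k i ∈ J)
    (chain : ∀ i i', M (k i) (k i') = cA m i i')
    (iso : ∀ a ∈ J, a ∉ Set.range k → ∀ b ∈ J, b ≠ a → M b a = 2) : OneChain M J k := by
  refine ⟨mem, chain, fun a ha hk i => iso a ha hk _ (mem i) (fun e => hk ⟨i, e⟩), fun k' hk' hM => ?_⟩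
  refine ⟨⟨0, by omega⟩, ?_⟩
  by_contra hcon
  have h1 := iso _ (hk' ⟨0, by omega⟩) hcon (k' ⟨1, by omega⟩) (hk' _) (fun e => by
    have := congrArg Fin.val (k'.injective e)
    simp at this)
  rw [hM, cA_apply] at h1
  simp [mA] at h1

section

variable {m : ℕ} {k : Fin m ↪ I} {J : Set I}

omit [Fintype I] [DecidableEq I] in
theorem mA_of (i i' : ℕ) : mA i i' = if i = i' then 1 else if i + 1 = i' ∨ i' + 1 = i then 3 else 2 := by
  unfold mA
  split_ifs <;> first | rfl | omega

omit [Fintype I] [DecidableEq I] in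
theorem cartan_of_M (h : IsCartan M A) {a b : I} :
    (A a b = 2 ↔ a = b) ∧ (A a b = 0 ↔ M a b = 2) ∧ (A a b = -1 → A b a = -1 → M a b = 3) ∧
      (M a b = 3 → A a b = -1 ∧ A b a = -1) := by
  by_cases hab : a = b
  · subst hab
    have h1 := h.diag a
    have h2 := M.diagonal a
    refine ⟨by simp [h1], ?_, ?_, ?_⟩
    · rw [h1, h2]; norm_num
    · rw [h1]; norm_num
    · rw [h2]; norm_num
  · rcases h.rel a b hab with ⟨h1, h2, h3⟩ | ⟨h1, h2, h3⟩ | ⟨h1, ⟨h2, h3⟩ | ⟨h2, h3⟩⟩ | ⟨h1, ⟨h2, h3⟩ | ⟨h2, h3⟩⟩ <;>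
      simp [h1, h2, h3, hab]

omit [Fintype I] [DecidableEq I] in
theorem OneChain.cartan (hk : OneChain M J k) (h : IsCartan M A) (i i' : Fin m) :
    A (k i) (k i') = if (i : ℕ) = i' then 2 else if (i : ℕ) + 1 = i' ∨ (i' : ℕ) + 1 = i then -1 else 0 := by
  obtain ⟨h1, h2, h3, h4⟩ := cartan_of_M h (a := k i) (b := k i')
  have h5 := hk.chain i i'
  rw [cA_apply, mA_of] at h5
  split_ifs at h5 ⊢ with e1 e2
  · exact h1.2 (congrArg k (Fin.ext e1))
  · exact (h4 h5).1
  · exact h2.2 h5

omit [Fintype I] [DecidableEq I] in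
theorem OneChain.dvd (hk : OneChain M J k) (h : IsCartan M A) {a : I} (ha : a ∈ J) :
    ((m : ℤ) + 1) ∣ ∑ i : Fin m, ((i : ℕ) + 1 : ℤ) * A (k i) a := by
  by_cases hr : a ∈ Set.range k
  · obtain ⟨i', rfl⟩ := hr
    have h1 : ∑ i : Fin m, ((i : ℕ) + 1 : ℤ) * A (k i) (k i') = ∑ i ∈ Finset.range m, ((i : ℤ) + 1) *
        (if i = (i' : ℕ) then (2 : ℤ) else if i + 1 = (i' : ℕ) ∨ (i' : ℕ) + 1 = i then -1 else 0) := by
      rw [← Fin.sum_univ_eq_sum_range]
      exact Finset.sum_congr rfl fun i _ => by rw [hk.cartan h]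
    rw [h1, sum_chain m]
    have := i'.2
    split_ifs with e1 e2
    · omega
    · exact ⟨1, by omega⟩
    · exact dvd_zero _
  · rw [Finset.sum_eq_zero fun i _ => ?_]
    · exact dvd_zero _
    · rw [(cartan_of_M h (a := k i) (b := a)).2.1.2 (hk.iso a ha hr i), mul_zero]

theorem sr_inj {i i' : I} (hii : (sr i : I → ℤ) = sr i') : i = i' := by
  by_contra hne
  have := congrFun hii i
  rw [sr_self, sr_ne hne] at this
  exact one_ne_zero this

/-- **Two possibilities.** -/
theorem OneChain.id_or_rev [Finite W] (hk : OneChain M J k) {w : W} (hw : Perm cs h J w) :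
    (∀ i, rep cs h w (sr (k i)) = sr (k i)) ∨ ∀ i, rep cs h w (sr (k i)) = sr (k i.rev) := by
  choose k₀ hk₀ e using fun i => hw.2 (k i) (hk.mem i)
  have hinj : Function.Injective k₀ := by
    intro a b hab
    apply k.injective
    apply sr_inj
    rw [← rep_inv_apply cs h w (sr (k a)), e, hab, ← e, rep_inv_apply]
  have hA : ∀ i i', A (k₀ i) (k₀ i') = A (k i) (k i') := fun i i' => cartan_rep (e i) (e i')
  have hM : ∀ i i', M (k₀ i) (k₀ i') = cA m i i' := by
    intro i i'
    rw [← hk.chain]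
    obtain ⟨h1, h2, h3, h4⟩ := cartan_of_M h (a := k i) (b := k i')
    obtain ⟨h1', h2', h3', h4'⟩ := cartan_of_M h (a := k₀ i) (b := k₀ i')
    have h5 := hk.cartan h i i'
    have h6 := hk.cartan h i' i
    have h7 := hk.chain i i'
    rw [cA_apply, mA_of] at h7
    split_ifs at h5 h6 h7 with g1 g2 g3 g4 g5 g6 <;> first | omega | skip
    · obtain rfl : i = i' := Fin.ext g1
      rw [M.diagonal, M.diagonal]
    all_goals first
      | (rw [h7]; exact h3' ((hA i i').trans h5) ((hA i' i).trans h6))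
      | (rw [h7]; exact h2'.1 ((hA i i').trans h5))
  obtain ⟨i₁, hi₁⟩ := hk.uniq ⟨k₀, hinj⟩ hk₀ hM
  have hstep : ∀ i i' : Fin m, (i : ℕ) + 1 = i' → (k₀ i ∈ Set.range k ↔ k₀ i' ∈ Set.range k) := by
    intro i i' hii
    have h3 : M (k₀ i) (k₀ i') = 3 := by rw [hM, cA_apply, mA_of, if_neg (by omega), if_pos (Or.inl hii)]
    constructor
    · rintro ⟨b, hb⟩
      by_contra hcon
      have := hk.iso _ (hk₀ i') hcon b
      rw [hb, h3] at this
      omega
    · rintro ⟨b, hb⟩
      by_contra hcon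
      have := hk.iso _ (hk₀ i) hcon b
      rw [hb, M.symmetric, h3] at this
      omega
  have hall : ∀ n (hn : n < m), k₀ ⟨n, hn⟩ ∈ Set.range k ↔ k₀ ⟨0, by omega⟩ ∈ Set.range k := by
    intro n
    induction n with
    | zero => intro _; exact Iff.rfl
    | succ n ih =>
      intro hn
      rw [← hstep ⟨n, by omega⟩ ⟨n + 1, hn⟩ rfl]
      exact ih (by omega)
  have hmem : ∀ i : Fin m, k₀ i ∈ Set.range k := fun i => (hall i i.2).2 ((hall i₁ i₁.2).1 hi₁)
  choose f hf using hmem
  have hfi : Function.Injective f := by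
    intro a b hab
    apply hinj
    rw [← hf, ← hf, hab]
  have hadj : ∀ i i' : Fin m, (i : ℕ) + 1 = i' → (f i : ℕ) + 1 = f i' ∨ (f i' : ℕ) + 1 = f i := by
    intro i i' hii
    have h3 : M (k₀ i) (k₀ i') = 3 := by rw [hM, cA_apply, mA_of, if_neg (by omega), if_pos (Or.inl hii)]
    rw [← hf, ← hf, hk.chain, cA_apply, mA_of] at h3
    split_ifs at h3 with g1 g2 <;> first | assumption | omega
  rcases path_aut hfi hadj with h1 | h1
  · exact Or.inl fun i => by rw [e, ← hf, h1]
  · exact Or.inr fun i => by rw [e, ← hf, h1]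

theorem pairing_comm_sum (x : I → ℤ) (c : Fin m → ℤ) :
    ∑ i, c i * pairing A (k i) x = ∑ a, x a * ∑ i, c i * A (k i) a := by
  unfold pairing
  simp only [Finset.mul_sum]
  rw [Finset.sum_comm]
  exact Finset.sum_congr rfl fun a _ => Finset.sum_congr rfl fun i _ => by ring

/-- **The component is reversed.** -/
theorem reverse [Finite W] {j : I} (hJ : ∀ i, i ∈ J ↔ i ≠ j) (hk : OneChain M J k)
    (hd : ¬ ((m : ℤ) + 1) ∣ 2 * ∑ i : Fin m, ((i : ℕ) + 1 : ℤ) * A (k i) j) {w : W} (hw : Perm cs h J w)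
    (hwJ : w ∉ WJ cs J) (i : Fin m) : rep cs h w (sr (k i)) = sr (k i.rev) := by
  rcases hk.id_or_rev hw with h1 | h1
  · exfalso
    apply hd
    have h2 : ∀ i, pairing A (k i) (rep cs h w (sr j)) = A (k i) j := by
      intro i
      rw [pairing_rep (h1 i), sr, pairing_single, mul_one]
    have h3 := pairing_comm_sum (k := k) (A := A) (rep cs h w (sr j)) fun i => ((i : ℕ) + 1 : ℤ)
    rw [Finset.sum_congr rfl fun i _ => by rw [h2 i]] at h3
    have h4 : rep cs h w (sr j) j = -1 := by rw [apply_eq_neg hJ hw hwJ, sr_self]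
    rw [← Finset.add_sum_erase _ _ (Finset.mem_univ j), h4] at h3
    have h5 : ((m : ℤ) + 1) ∣ ∑ a ∈ Finset.univ.erase j, rep cs h w (sr j) a * ∑ i : Fin m, ((i : ℕ) + 1 : ℤ) * A (k i) a := by
      refine Finset.dvd_sum fun a ha => ?_
      exact Dvd.dvd.mul_left (hk.dvd h ((hJ a).2 (Finset.ne_of_mem_erase ha))) _
    have h6 : 2 * ∑ i : Fin m, ((i : ℕ) + 1 : ℤ) * A (k i) j =
        ∑ a ∈ Finset.univ.erase j, rep cs h w (sr j) a * ∑ i : Fin m, ((i : ℕ) + 1 : ℤ) * A (k i) a := by
      linarith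
    rw [h6]
    exact h5
  · exact h1 i

/-- elements fixing the coordinate `j` are in `W_J` -/
theorem mem_WJ_of_coord {j : I} (hJ : ∀ i, i ∈ J ↔ i ≠ j) {u : W} (hu : ∀ x, rep cs h u x j = x j) : u ∈ WJ cs J := by
  induction hn : cs.length u using Nat.strong_induction_on generalizing u with
  | _ n ih =>
    by_cases h1 : u = 1
    · rw [h1]; exact one_mem _
    obtain ⟨i, hi⟩ := cs.exists_rightDescent_of_ne_one h1
    have h2 : rep cs h u (sr i) ≤ 0 := nonpos_of_lt cs h u i hi
    have hij : i ≠ j := by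
      rintro rfl
      have h3 := h2 i
      rw [hu, sr_self] at h3
      exact absurd h3 (by simp)
    have h4 : u * cs.simple i ∈ WJ cs J := by
      refine ih _ ?_ (fun x => ?_) rfl
      · rw [← hn]; exact hi
      · rw [rep_mul_apply, hu, rep_simple_apply cs h i x j hij.symm]
    have h5 : u = u * cs.simple i * cs.simple i := by rw [mul_assoc, simple_mul_simple_self, mul_one]
    rw [h5]
    exact mul_mem h4 (simple_mem_WJ cs ((hJ i).2 hij))

/-- a vector pairing to zero with all but one simple coroot -/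
theorem exists_weight [Finite W] (cs : CoxeterSystem M W) (h : IsCartan M A) (b : I) :
    ∃ (y : I → ℤ) (N : ℤ), N ≠ 0 ∧ pairing A b y = N ∧ ∀ a, a ≠ b → pairing A a y = 0 := by
  have := Fintype.ofFinite W
  let B : Matrix I I ℤ := Matrix.of A
  have hdet : B.det ≠ 0 := by
    intro h0
    obtain ⟨v, hv, hv0⟩ := Matrix.exists_mulVec_eq_zero_iff.2 h0
    have h1 : ∀ a, pairing A a v = 0 := fun a => congrFun hv0 a
    have h2 : ∀ a, form cs h v (sr a) = 0 := by
      intro a
      have := two_form cs h a v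
      rw [h1, zero_mul] at this
      omega
    have h3 := form_pos cs h hv
    rw [form_eq_sum, Finset.sum_eq_zero fun a _ => by rw [h2, mul_zero]] at h3
    exact lt_irrefl _ h3
  refine ⟨B.adjugate.mulVec (Pi.single b 1), B.det, hdet, ?_, fun a ha => ?_⟩
  · have h1 : B.mulVec (B.adjugate.mulVec (Pi.single b 1)) = B.det • Pi.single b 1 := by
      rw [Matrix.mulVec_mulVec, Matrix.mul_adjugate, Matrix.smul_mulVec, Matrix.one_mulVec]
    have h2 := congrFun h1 b
    rw [Pi.smul_apply, Pi.single_eq_same, smul_eq_mul, mul_one] at h2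
    exact h2
  · have h1 : B.mulVec (B.adjugate.mulVec (Pi.single b 1)) = B.det • Pi.single b 1 := by
      rw [Matrix.mulVec_mulVec, Matrix.mul_adjugate, Matrix.smul_mulVec, Matrix.one_mulVec]
    have h2 := congrFun h1 a
    rw [Pi.smul_apply, Pi.single_eq_of_ne ha, smul_zero] at h2
    exact h2

/-- **The component is reversed**, if `-1` is an element of the Weyl group. -/
theorem reverse_of_neg [Finite W] {j : I} (hJ : ∀ i, i ∈ J ↔ i ≠ j) (hk : OneChain M J k) (hm : 2 ≤ m)
    {w₀ : W} (h0 : ∀ x, rep cs h w₀ x = -x) {w : W} (hw : Perm cs h J w)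
    (hwJ : w ∉ WJ cs J) (i : Fin m) : rep cs h w (sr (k i)) = sr (k i.rev) := by
  rcases hk.id_or_rev hw with h1 | h1
  · exfalso
    obtain ⟨y, N, hN, hy1, hy2⟩ := exists_weight cs h (k ⟨0, by omega⟩)
    have hmem : w₀ * w ∈ WJ cs J := by
      refine mem_WJ_of_coord (h := h) hJ fun x => ?_
      rw [rep_mul_apply, h0, Pi.neg_apply, apply_eq_neg hJ hw hwJ, neg_neg]
    have key : ∀ v ∈ WJ cs J, ∀ y : I → ℤ, (∀ a, N ∣ pairing A a y) → (∀ a, N ∣ pairing A a (rep cs h v y)) ∧
        N * ((m : ℤ) + 1) ∣ ∑ i : Fin m, ((i : ℕ) + 1 : ℤ) * pairing A (k i) (rep cs h v y) -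
          ∑ i : Fin m, ((i : ℕ) + 1 : ℤ) * pairing A (k i) y := by
      intro v hv
      induction hv using Subgroup.closure_induction with
      | mem v hv =>
        obtain ⟨a, ha, rfl⟩ := hv
        intro y hy
        have e : ∀ b, pairing A b (rep cs h (cs.simple a) y) = pairing A b y - pairing A a y * A b a := by
          intro b
          rw [rep_simple_eq, sub_eq_add_neg, ← neg_smul, pairing_add, pairing_smul, sr, pairing_single]
          ring
        refine ⟨fun b => ?_, ?_⟩
        · rw [e]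
          exact dvd_sub (hy b) ((hy a).mul_right _)
        · have e2 : ∑ i : Fin m, ((i : ℕ) + 1 : ℤ) * pairing A (k i) (rep cs h (cs.simple a) y) -
              ∑ i : Fin m, ((i : ℕ) + 1 : ℤ) * pairing A (k i) y =
              -(pairing A a y * ∑ i : Fin m, ((i : ℕ) + 1 : ℤ) * A (k i) a) := by
            rw [← Finset.sum_sub_distrib, Finset.mul_sum, ← Finset.sum_neg_distrib]
            exact Finset.sum_congr rfl fun i _ => by rw [e]; ring
          rw [e2, dvd_neg]
          exact mul_dvd_mul (hy a) (hk.dvd h ha)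
      | one =>
        intro y hy
        rw [map_one, Module.End.one_apply, sub_self]
        exact ⟨hy, dvd_zero _⟩
      | mul v v' _ _ ih ih' =>
        intro y hy
        obtain ⟨g1, g2⟩ := ih' y hy
        obtain ⟨g3, g4⟩ := ih _ g1
        rw [rep_mul_apply]
        refine ⟨g3, ?_⟩
        have := dvd_add g4 g2
        rwa [sub_add_sub_cancel] at this
      | inv v _ ih =>
        intro y hy
        have hfin : ∃ n : ℕ, v⁻¹ = v ^ n := by
          obtain ⟨n, hn⟩ := (mem_powers_iff_mem_zpowers (x := v) (y := v⁻¹)).2 (by simp)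
          exact ⟨n, hn.symm⟩
        obtain ⟨n, hn⟩ := hfin
        rw [hn]
        clear hn
        induction n with
        | zero =>
          rw [pow_zero, map_one, Module.End.one_apply, sub_self]
          exact ⟨hy, dvd_zero _⟩
        | succ n ihn =>
          obtain ⟨g1, g2⟩ := ihn
          obtain ⟨g3, g4⟩ := ih _ g1
          rw [pow_succ', rep_mul_apply]
          refine ⟨g3, ?_⟩
          have := dvd_add g4 g2
          rwa [sub_add_sub_cancel] at this
    obtain ⟨-, h2⟩ := key _ hmem y (fun a => by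
      by_cases ha : a = k ⟨0, by omega⟩
      · rw [ha, hy1]
      · rw [hy2 a ha]; exact dvd_zero _)
    have h3 : ∀ i, pairing A (k i) (rep cs h (w₀ * w) y) = - pairing A (k i) y := by
      intro i
      rw [rep_mul_apply, h0, ← neg_one_smul ℤ, pairing_smul, pairing_rep (h1 i), neg_one_mul]
    have h4 : ∑ i : Fin m, ((i : ℕ) + 1 : ℤ) * pairing A (k i) y = N := by
      rw [Finset.sum_eq_single (⟨0, by omega⟩ : Fin m)]
      · rw [hy1]; simp
      · intro i _ hi
        rw [hy2 _ (fun e => hi (k.injective e)), mul_zero]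
      · intro hi
        exact absurd (Finset.mem_univ _) hi
    rw [Finset.sum_congr rfl fun i _ => by rw [h3 i, mul_neg], Finset.sum_neg_distrib, h4] at h2
    have h5 : N * ((m : ℤ) + 1) ∣ N * 2 := by
      have e : -N - N = -(N * 2) := by ring
      rw [e, dvd_neg] at h2
      exact h2
    have h6 : ((m : ℤ) + 1) ∣ 2 := (mul_dvd_mul_iff_left hN).1 h5
    have h7 := Int.le_of_dvd (by norm_num) h6
    omega
  · exact h1 i

end

end Cfsg.Agent.H643.RIM
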