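import Cfsg.Agent.H643.RIM.Levi

/-!
# `NB p m S` from cuspidal characters of the Levi subgroups of the covers (S4816)

`nb_of_lift` : the characters are given on `M_J` of the lifted root group datum.
-/

set_option autoImplicit false
set_option linter.unusedSectionVars false

open scoped ComplexConjugate Pointwise

namespace Cfsg.Agent.H643.RIM

open Cfsg Cfsg.Agent.Characters CoxeterSystem Cfsg.Agent.ChevalleyStructure.CoxeterGeom Cfsg.Agent.Tits.Roots
  Cfsg.Agent.Tits.Core Cfsg.Agent.Tits.Exchange Cfsg.Agent.Nodes.Reps Cfsg.Agent.Nodes.BNOf Cfsg.Agent.Nodes.StabComb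
  Cfsg.Agent.Nodes.Bruhat Cfsg.Agent.Nodes.OppDec Cfsg.Agent.Nodes.LeviDec Cfsg.Agent.Nodes.RGDLift Cfsg.Agent.H53.HC
  Cfsg.Agent.OddOrderCharacters.IndRes
open Cfsg.Agent.H665.RIM (NB)

universe u v

variable {I : Type*} {W : Type*} {S : Type u} [Fintype I] [DecidableEq I] [Group W] [Group S] {M : CoxeterMatrix I}
  {cs : CoxeterSystem M W} {A : I → I → ℤ} {h : IsCartan M A} {r : ℕ} {T : Subgroup S} {n : I → S}
  {X : (I → ℤ) → Subgroup S}

theorem card_lft_eq {E : Type*} [Group E] [Finite E] [Fact r.Prime] {π : E →* S}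
    (hc : π.ker ≤ Subgroup.center E) (hk : (Nat.card π.ker).Coprime r) (hs : Function.Surjective π)
    {P : Subgroup S} (hP : IsPGroup r P) : Nat.card ↥(lft r π P) = Nat.card P := by
  have h1 := map_lft hc hk hs hP
  have h4 : Nat.card ↥(lft r π P) = Nat.card ↥((lft r π P).map π) := by
    refine Nat.card_congr (Equiv.ofBijective (π.subgroupMap (lft r π P)) ⟨?_, π.subgroupMap_surjective _⟩)
    rintro ⟨x, hx⟩ ⟨y, hy⟩ hxy
    have hxy' : π x = π y := congrArg Subtype.val hxy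
    have h2 : π (x⁻¹ * y) = 1 := by rw [map_mul, map_inv, hxy', inv_mul_cancel]
    have h3 := eq_one_of_mem_lft hc hk hP (mul_mem (inv_mem hx) hy) h2
    exact Subtype.ext (inv_mul_eq_one.1 h3)
  rw [h4, h1]

/-- **The lemma with the characters given in the cover.** `(T', n', X')` is the lifted datum, `Z` the kernel. -/
theorem nb_of_lift [Finite W] [Finite S] [Fact r.Prime] (R : RGD cs h r T n X) (hG : GG cs h T X = ⊤) (J : Set I)
    {p m : ℕ} (hm : ¬ r ∣ m)
    (H : ∀ (E : Type u) [Group E] [Finite E] (T' : Subgroup E) (n' : I → E) (X' : (I → ℤ) → Subgroup E)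
      (R' : RGD cs h r T' n' X') (Z : Subgroup E), Z ≤ Subgroup.center E → Z ≤ T' → Nat.card Z = m →
      commutator E = ⊤ → GG cs h T' X' = ⊤ → (∀ i, Nat.card (X' (sr i)) = Nat.card (X (sr i))) →
      ∀ l : Z →* ℂˣ, Function.Injective l → ∃ θ : ↥(MJ cs h X' J) → ℂ, IsIrrCharacter _ θ ∧
        (∀ z (hz : z ∈ Z) (hn : z ∈ MJ cs h X' J), θ ⟨z, hn⟩ = l ⟨z, hz⟩ * θ 1) ∧
        (∀ i ∈ J, ∀ [Fintype (rad cs h X' J i)], ∑ u : rad cs h X' J i, θ ⟨u, rad_le_MJ J i u.2⟩ = 0) ∧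
        (∀ w g (hg : Rp cs R'.nsys w g), w ∉ WJ cs J → ∀ hw : Perm cs h J w,
          ∃ (x : E) (hx : x ∈ MJ cs h X' J), θ ⟨g⁻¹ * x * g, conj_mem_MJ R' hg hw hx⟩ ≠ θ ⟨x, hx⟩) ∧
        p ∣ (PJ cs h T X J).index * charDegree θ) :
    NB p m S := by
  classical
  intro E _ _ π hs hc hcomm hcard l hl
  have hk : (Nat.card π.ker).Coprime r := by
    rw [hcard]
    exact (((Fact.out : r.Prime).coprime_iff_not_dvd).2 hm).symm
  have : Fintype E := Fintype.ofFinite E
  obtain ⟨n', hn'⟩ : ∃ n' : I → E, ∀ i, π (n' i) = n i := by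
    choose n' hn' using fun i => hs (n i)
    exact ⟨n', hn'⟩
  have R' := rgd_lift hc hk hs R hn'
  have hG' := GG_lift hc hk hs R hG
  have hZT : π.ker ≤ T.comap π := fun z hz => show π z ∈ T by rw [MonoidHom.mem_ker.1 hz]; exact one_mem _
  obtain ⟨θ, hirr, hμ, hcus, hnf, hdvd⟩ := H E _ _ _ R' π.ker hc hZT hcard hcomm hG'
    (fun i => card_lft_eq hc hk hs (R.pgrp' (isRoot_sr cs h i))) l hl
  obtain ⟨χ, hχ, hχl, k, hk0, hχ1⟩ := exists_ind_over R' hG' J hZT
    (fun z hz g => (Subgroup.mem_center_iff.1 (hc hz) g).symm) l hirr hμ hcus hnf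
  refine ⟨χ, hχ, fun z => by rw [hχl, mul_comm], ?_⟩
  have h1 : charDegree χ = k * ((PJ cs h T X J).index * charDegree θ) := by
    have h2 : ((charDegree χ : ℕ) : ℂ) = ((k * ((PJ cs h T X J).index * charDegree θ) : ℕ) : ℂ) := by
      rw [charDegree_cast hχ, hχ1, Nat.cast_mul, Nat.cast_mul, charDegree_cast hirr, index_PJ hc hk hs R]
    exact_mod_cast h2
  rw [h1]
  exact Dvd.dvd.mul_left hdvd k

end Cfsg.Agent.H643.RIM
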